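import Mathlib
import Cfsg.Agent.Coprime.Sylow
import Cfsg.Agent.Coprime.Glauberman

/-!
Homogeneity with respect to a set of primes, and closure of the class of groups whose
`π`-elements form a subgroup under extensions inside such a group.
-/

set_option autoImplicit false

open scoped Pointwise

namespace CfsgLib.PiClosed

universe u

variable {G : Type u} [Group G]

/-- All prime divisors of `n` lie in `π`. -/
def PiNat (π : Set ℕ) (n : ℕ) : Prop := ∀ p : ℕ, p.Prime → p ∣ n → p ∈ π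

/-- All prime divisors of `n` lie outside `π`. -/
def CoNat (π : Set ℕ) (n : ℕ) : Prop := ∀ p : ℕ, p.Prime → p ∣ n → p ∉ π

/-- `π`-elements normalising a `π'`-subgroup centralise it. -/
def Homog (π : Set ℕ) (G : Type u) [Group G] : Prop :=
  ∀ H : Subgroup G, CoNat π (Nat.card H) → ∀ x ∈ Subgroup.normalizer (H : Set G),
    PiNat π (orderOf x) → x ∈ Subgroup.centralizer (H : Set G)

/-- The `π`-elements form a subgroup. -/
def Closed (π : Set ℕ) (G : Type u) [Group G] : Prop :=
  ∃ K : Subgroup G, ∀ x : G, x ∈ K ↔ PiNat π (orderOf x)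

theorem PiNat.of_dvd {π : Set ℕ} {m n : ℕ} (h : PiNat π n) (hd : m ∣ n) : PiNat π m :=
  fun p hp hpm => h p hp (hpm.trans hd)

theorem CoNat.of_dvd {π : Set ℕ} {m n : ℕ} (h : CoNat π n) (hd : m ∣ n) : CoNat π m :=
  fun p hp hpm => h p hp (hpm.trans hd)

theorem coprime {π : Set ℕ} {m n : ℕ} (hm : PiNat π m) (hn : CoNat π n) : Nat.Coprime m n :=
  Nat.coprime_of_dvd fun p hp h1 h2 => hn p hp h2 (hm p hp h1)

theorem piNat_one {π : Set ℕ} : PiNat π 1 :=
  fun p hp h => absurd (Nat.dvd_one.mp h) hp.ne_one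

theorem exists_split (π : Set ℕ) (n : ℕ) : n ≠ 0 → ∃ a b : ℕ, n = a * b ∧ PiNat π a ∧ CoNat π b := by
  induction n using Nat.recOnMul with
  | zero => exact fun h => absurd rfl h
  | one => exact fun _ => ⟨1, 1, rfl, piNat_one, fun p hp h => absurd (Nat.dvd_one.mp h) hp.ne_one⟩
  | prime p hp =>
    intro _
    by_cases h : p ∈ π
    · exact ⟨p, 1, (mul_one p).symm, fun q hq hd => (Nat.prime_dvd_prime_iff_eq hq hp).mp hd ▸ h,
        fun q hq hd => absurd (Nat.dvd_one.mp hd) hq.ne_one⟩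
    · exact ⟨1, p, (one_mul p).symm, piNat_one, fun q hq hd => (Nat.prime_dvd_prime_iff_eq hq hp).mp hd ▸ h⟩
  | mul a b iha ihb =>
    intro h
    obtain ⟨ha, hb⟩ := mul_ne_zero_iff.mp h
    obtain ⟨a1, a2, rfl, h1, h2⟩ := iha ha
    obtain ⟨b1, b2, rfl, h3, h4⟩ := ihb hb
    exact ⟨a1 * b1, a2 * b2, by ring, fun p hp hd => (hp.dvd_mul.mp hd).elim (h1 p hp) (h3 p hp),
      fun p hp hd => (hp.dvd_mul.mp hd).elim (h2 p hp) (h4 p hp)⟩

/-- A `π`-element of an image is the image of a `π`-element that is a power of any given preimage. -/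
theorem exists_lift [Finite G] {Q : Type*} [Group Q] (f : G →* Q) (π : Set ℕ) (a : G)
    (ha : PiNat π (orderOf (f a))) :
    ∃ n : ℕ, PiNat π (orderOf (a ^ n)) ∧ f (a ^ n) = f a := by
  obtain ⟨k, j, hkj, hk, hj⟩ := exists_split π (orderOf a) (orderOf_pos a).ne'
  obtain ⟨i, hi⟩ := exists_pow_eq_self_of_coprime (x := f a) (n := j) (coprime ha hj).symm
  refine ⟨j * i, hk.of_dvd (orderOf_dvd_of_pow_eq_one ?_), by rw [map_pow, pow_mul, hi]⟩
  rw [← pow_mul, show j * i * k = k * j * i by ring, pow_mul, ← hkj, pow_orderOf_eq_one, one_pow]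

theorem piNat_card [Finite G] {π : Set ℕ} {K : Subgroup G} (h : ∀ x ∈ K, PiNat π (orderOf x)) :
    PiNat π (Nat.card K) := by
  intro p hp hd
  haveI : Fact p.Prime := ⟨hp⟩
  obtain ⟨x, hx⟩ := exists_prime_orderOf_dvd_card' (G := K) p hd
  exact h x x.2 p hp (by rw [Subgroup.orderOf_coe, hx])

/-- Homogeneity passes to subgroups. -/
theorem Homog.subgroup {π : Set ℕ} (h : Homog π G) (K : Subgroup G) : Homog π K := by
  intro H hH x hx hxo
  have hH' : CoNat π (Nat.card (H.map K.subtype)) := by rwa [Subgroup.card_subtype]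
  have hx' : (x : G) ∈ Subgroup.normalizer ((H.map K.subtype : Subgroup G) : Set G) := by
    rw [Subgroup.mem_normalizer_iff] at hx ⊢
    intro y
    constructor
    · rintro ⟨z, hz, rfl⟩; exact ⟨x * z * x⁻¹, (hx z).mp hz, rfl⟩
    · rintro ⟨z, hz, hzy⟩
      refine ⟨x⁻¹ * z * x, (hx _).mpr (by simpa [mul_assoc] using hz), ?_⟩
      simp only [map_mul, map_inv, hzy, Subgroup.coe_subtype]
      group
  have hc := h _ hH' x hx' (by rwa [Subgroup.orderOf_coe])
  rw [Subgroup.mem_centralizer_iff] at hc ⊢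
  exact fun y hy => Subtype.ext (hc y ⟨y, hy, rfl⟩)

/-- Modulo a normal `π`-subgroup, a `π`-element normalising a `π'`-subgroup still centralises it. -/
theorem centralizes_quotient [Finite G] {π : Set ℕ} (hhom : Homog π G) (L : Subgroup G) [L.Normal]
    (hL : PiNat π (Nat.card L)) (X : Subgroup (G ⧸ L)) (hX : CoNat π (Nat.card X))
    (z : G ⧸ L) (hz : z ∈ Subgroup.normalizer (X : Set (G ⧸ L))) (hzo : PiNat π (orderOf z)) :
    z ∈ Subgroup.centralizer (X : Set (G ⧸ L)) := by
  have hle : X ≤ Subgroup.centralizer ({z} : Set (G ⧸ L)) := by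
    rw [← Subgroup.relIndex_eq_one, Nat.eq_one_iff_not_exists_prime_dvd]
    intro q hq hd
    haveI : Fact q.Prime := ⟨hq⟩
    have hqX : q ∣ Nat.card X := hd.trans (Subgroup.index_dvd_card _)
    have hqπ : q ∉ π := hX q hq hqX
    obtain ⟨P, hP⟩ := CfsgLib.Coprime.exists_invariant_sylow (p := q) (A := Subgroup.zpowers z) (G := X)
      (Subgroup.zpowers_le.mpr hz) (by rw [Nat.card_zpowers]; exact coprime hzo hX)
      (Or.inl inferInstance)
    set Qb := (P : Subgroup X).map X.subtype with hQb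
    refine P.not_dvd_index (hd.trans (Subgroup.index_dvd_of_le (H := (P : Subgroup X)) fun w hw => ?_))
    -- `z` centralises the invariant Sylow subgroup
    suffices hc : ∀ w ∈ Qb, w * z = z * w from
      Subgroup.mem_centralizer_singleton_iff.mpr (hc w ⟨w, hw, rfl⟩)
    have hzQ : z ∈ Subgroup.normalizer (Qb : Set (G ⧸ L)) := hP (Subgroup.mem_zpowers z)
    obtain ⟨a, rfl⟩ := QuotientGroup.mk'_surjective L z
    set Y := Qb.comap (QuotientGroup.mk' L) with hY
    have hLY : L ≤ Y := fun x hx => by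
      show QuotientGroup.mk' L x ∈ Qb
      rw [show QuotientGroup.mk' L x = 1 from (QuotientGroup.eq_one_iff x).mpr hx]; exact Qb.one_mem
    obtain ⟨e, he⟩ := IsPGroup.iff_card.mp (P.2.map X.subtype : IsPGroup q Qb)
    have hidx : L.relIndex Y = q ^ e := by
      have h0 : (⊥ : Subgroup (G ⧸ L)).comap (QuotientGroup.mk' L) = L := by
        rw [MonoidHom.comap_bot, QuotientGroup.ker_mk']
      calc L.relIndex Y = ((⊥ : Subgroup (G ⧸ L)).comap (QuotientGroup.mk' L)).relIndex Y := by rw [h0]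
        _ = Nat.card Qb := by
          rw [Subgroup.relIndex_comap, hY, Subgroup.map_comap_eq_self_of_surjective (QuotientGroup.mk'_surjective L),
            Subgroup.relIndex_bot_left]
        _ = q ^ e := he
    obtain ⟨S⟩ : Nonempty (Sylow q Y) := inferInstance
    set S' := (S : Subgroup Y).map Y.subtype with hS'
    have hYc : Nat.card L * q ^ e = Nat.card Y := by
      rw [← hidx, ← Subgroup.relIndex_bot_left, ← Subgroup.relIndex_bot_left]
      exact Subgroup.relIndex_mul_relIndex _ _ _ bot_le hLY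
    have hqL : ¬ q ∣ Nat.card L := fun h => hqπ (hL q hq h)
    have hSc : Nat.card S = q ^ e := by
      rw [Sylow.card_eq_multiplicity, ← hYc, Nat.factorization_mul Nat.card_pos.ne' (pow_ne_zero _ hq.ne_zero),
        Finsupp.add_apply, Nat.factorization_eq_zero_of_not_dvd hqL, zero_add, hq.factorization_pow, Finsupp.single_eq_same]
    -- `Y = L S'`
    have hmapS : S'.map (QuotientGroup.mk' L) = Qb := by
      apply Subgroup.eq_of_le_of_card_ge
      · rintro _ ⟨_, ⟨s, hs, rfl⟩, rfl⟩; exact s.2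
      · rw [he, ← hSc, ← Subgroup.card_subtype Y (S : Subgroup Y), ← hS']
        refine le_of_eq (Nat.card_congr (Equiv.ofBijective (fun s : S' => (⟨QuotientGroup.mk' L s, s, s.2, rfl⟩ :
          S'.map (QuotientGroup.mk' L))) ⟨fun s t hst => ?_, ?_⟩))
        · have h1 : (s : G)⁻¹ * t ∈ L := QuotientGroup.eq.mp (congrArg Subtype.val hst)
          have h2 : S' ⊓ L = ⊥ := Subgroup.inf_eq_bot_of_coprime (by
            rw [hS', Subgroup.card_subtype, hSc]
            exact Nat.Coprime.pow_left e (hq.coprime_iff_not_dvd.mpr hqL))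
          have h3 : (s : G)⁻¹ * t ∈ S' ⊓ L := ⟨S'.mul_mem (S'.inv_mem s.2) t.2, h1⟩
          rw [h2, Subgroup.mem_bot, inv_mul_eq_one] at h3
          exact Subtype.ext h3
        · rintro ⟨_, s, hs, rfl⟩; exact ⟨⟨s, hs⟩, rfl⟩
    have hYn : ∀ y ∈ Y, a * y * a⁻¹ ∈ Y := by
      intro y hy
      show QuotientGroup.mk' L (a * y * a⁻¹) ∈ Qb
      rw [map_mul, map_mul, map_inv]
      exact (Subgroup.mem_normalizer_iff.mp hzQ _).mp hy
    -- Frattini argument
    obtain ⟨l, hl, hnorm⟩ : ∃ l ∈ L, l⁻¹ * a ∈ Subgroup.normalizer (S' : Set G) := by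
      have hale : ∀ s ∈ S', a * s * a⁻¹ ∈ Y := fun s hs => hYn s (Subgroup.map_subtype_le _ hs)
      let f : S' →* Y := ((MulAut.conj a).toMonoidHom.comp S'.subtype).codRestrict Y (fun s => hale s s.2)
      have hfinj : Function.Injective f := fun s t h =>
        Subtype.ext ((MulAut.conj a).injective (congrArg Subtype.val h))
      have hR : IsPGroup q f.range := by
        refine IsPGroup.of_card (n := e) ?_
        rw [← Nat.card_congr (MonoidHom.ofInjective hfinj).toEquiv, hS', Subgroup.card_subtype, hSc]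
      obtain ⟨R, hR'⟩ := hR.exists_le_sylow
      obtain ⟨y, hy⟩ := MulAction.exists_smul_eq Y S R
      obtain ⟨l, hl, s0, hs0, hy0⟩ : ∃ l ∈ L, ∃ s0 ∈ S', l * s0 = (y : G) := by
        have : QuotientGroup.mk' L (y : G) ∈ S'.map (QuotientGroup.mk' L) := hmapS.symm ▸ y.2
        obtain ⟨s0, hs0, h⟩ := this
        exact ⟨(y : G) * s0⁻¹, by rw [← QuotientGroup.eq_one_iff (N := L)]; show QuotientGroup.mk' L _ = 1; rw [map_mul, map_inv, h, mul_inv_cancel],
          s0, hs0, by group⟩
      refine ⟨l, hl, ?_⟩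
      have hfwd : ∀ s ∈ S', (l⁻¹ * a) * s * (l⁻¹ * a)⁻¹ ∈ S' := by
        intro s hs
        have h1 : f ⟨s, hs⟩ ∈ (R : Subgroup Y) := hR' ⟨_, rfl⟩
        rw [← hy, Sylow.coe_subgroup_smul] at h1
        obtain ⟨t, ht, hte⟩ := h1
        have hte' : (y : G) * t * (y : G)⁻¹ = a * s * a⁻¹ := congrArg Subtype.val hte
        have : (l⁻¹ * a) * s * (l⁻¹ * a)⁻¹ = s0 * (t : G) * s0⁻¹ := by
          calc (l⁻¹ * a) * s * (l⁻¹ * a)⁻¹ = l⁻¹ * (a * s * a⁻¹) * l := by group
            _ = l⁻¹ * ((y : G) * t * (y : G)⁻¹) * l := by rw [hte']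
            _ = _ := by rw [← hy0]; group
        rw [this]
        exact S'.mul_mem (S'.mul_mem hs0 ⟨t, ht, rfl⟩) (S'.inv_mem hs0)
      have hmap : S'.map (MulAut.conj (l⁻¹ * a)).toMonoidHom = S' := by
        apply Subgroup.eq_of_le_of_card_ge
        · rintro _ ⟨s, hs, rfl⟩; exact hfwd s hs
        · exact (Subgroup.card_map_of_injective (K := S') (MulAut.conj (l⁻¹ * a)).injective).ge
      rw [Subgroup.mem_normalizer_iff]
      intro w
      refine ⟨hfwd w, fun hw => ?_⟩
      rw [← hmap] at hw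
      obtain ⟨w', hw', he'⟩ := hw
      have : w' = w := (MulAut.conj (l⁻¹ * a)).injective he'
      exact this ▸ hw'
    have himg : QuotientGroup.mk' L (l⁻¹ * a) = QuotientGroup.mk' L a := by
      rw [map_mul, map_inv, show QuotientGroup.mk' L l = 1 from (QuotientGroup.eq_one_iff l).mpr hl, inv_one, one_mul]
    obtain ⟨n, hn, hn'⟩ := exists_lift (QuotientGroup.mk' L) π (l⁻¹ * a) (by rw [himg]; exact hzo)
    rw [himg] at hn'
    have hS'c : CoNat π (Nat.card S') := by
      rw [hS', Subgroup.card_subtype, hSc]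
      intro r hr hrd
      rw [(Nat.prime_dvd_prime_iff_eq hr hq).mp (hr.dvd_of_dvd_pow hrd)]; exact hqπ
    have hcent := hhom S' hS'c _ (Subgroup.pow_mem _ hnorm n) hn
    intro w hw
    rw [← hmapS] at hw
    obtain ⟨s, hs, rfl⟩ := hw
    rw [← hn', ← map_mul, ← map_mul, Subgroup.mem_centralizer_iff.mp hcent s hs]
  rw [Subgroup.mem_centralizer_iff]
  exact fun w hw => Subgroup.mem_centralizer_singleton_iff.mp (hle hw)

/-- Extensions inside a homogeneous group preserve closedness. -/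
theorem closed_extension [Finite G] {π : Set ℕ} (hhom : Homog π G) (K : Subgroup G) [K.Normal]
    (hK : Closed π K) (hQ : Closed π (G ⧸ K)) : Closed π G := by
  obtain ⟨L₀, hL₀⟩ := hK
  obtain ⟨Mb, hMb⟩ := hQ
  set L := L₀.map K.subtype
  have hLK : L ≤ K := Subgroup.map_subtype_le _
  have hLmem : ∀ x ∈ K, (x ∈ L ↔ PiNat π (orderOf x)) := by
    intro x hx
    constructor
    · rintro ⟨y, hy, rfl⟩
      rw [Subgroup.coe_subtype, Subgroup.orderOf_coe]; exact (hL₀ y).mp hy
    · intro h; exact ⟨⟨x, hx⟩, (hL₀ _).mpr (by rwa [Subgroup.orderOf_mk]), rfl⟩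
  haveI hLn : L.Normal := by
    refine ⟨fun x hx g => ?_⟩
    have hxK := hLK hx
    have hgK : g * x * g⁻¹ ∈ K := Subgroup.Normal.conj_mem inferInstance x hxK g
    rw [hLmem _ hgK, show g * x * g⁻¹ = (MulAut.conj g).toMonoidHom x from rfl,
      orderOf_injective _ (MulAut.conj g).injective]
    exact (hLmem x hxK).mp hx
  have hLπ : PiNat π (Nat.card L) := piNat_card fun x hx => (hLmem x (hLK hx)).mp hx
  set f := QuotientGroup.mk' L
  set M := Mb.comap (QuotientGroup.mk' K)
  have hKM : K ≤ M := fun x hx => by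
    show QuotientGroup.mk' K x ∈ Mb
    rw [show QuotientGroup.mk' K x = 1 from (QuotientGroup.eq_one_iff x).mpr hx]; exact Mb.one_mem
  have hin : ∀ x : G, PiNat π (orderOf x) → x ∈ M := fun x hx =>
    (hMb _).mpr (hx.of_dvd (orderOf_map_dvd _ x))
  set X := K.map f
  have hX : CoNat π (Nat.card X) := by
    intro p hp hd hpπ
    haveI : Fact p.Prime := ⟨hp⟩
    obtain ⟨⟨_, y, hy, rfl⟩, hyo⟩ := exists_prime_orderOf_dvd_card' (G := X) p hd
    rw [← Subgroup.orderOf_coe] at hyo
    change orderOf (f y) = p at hyo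
    obtain ⟨n, hn, hn'⟩ := exists_lift f π y (by
      rw [hyo]; intro r hr hrd; exact (Nat.prime_dvd_prime_iff_eq hr hp).mp hrd ▸ hpπ)
    have h1 : f (y ^ n) = 1 := (QuotientGroup.eq_one_iff _).mpr ((hLmem _ (Subgroup.pow_mem _ hy n)).mpr hn)
    rw [← hn', h1, orderOf_one] at hyo
    exact hp.ne_one hyo.symm
  set U := M.map f
  have hXU : X ≤ U := Subgroup.map_mono hKM
  haveI hXn : X.Normal := Subgroup.Normal.map inferInstance _ (QuotientGroup.mk'_surjective L)
  have hrel : PiNat π ((X.subgroupOf U).index) := by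
    have h1 : X.relIndex U ∣ K.relIndex M := by
      have h2 : K.relIndex M * Nat.card K = Nat.card M := by
        rw [mul_comm, ← Subgroup.relIndex_bot_left, ← Subgroup.relIndex_bot_left]
        exact Subgroup.relIndex_mul_relIndex _ _ _ bot_le hKM
      rw [Subgroup.relIndex, Subgroup.relIndex, Subgroup.index_eq_card, Subgroup.index_eq_card]
      refine Subgroup.card_dvd_of_surjective (QuotientGroup.map (K.subgroupOf M) (X.subgroupOf U) (f.subgroupMap M)
        (fun w hw => ⟨(w : G), hw, rfl⟩)) ?_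
      intro q
      obtain ⟨⟨_, m, hm, rfl⟩, rfl⟩ := QuotientGroup.mk_surjective q
      exact ⟨QuotientGroup.mk ⟨m, hm⟩, rfl⟩
    refine PiNat.of_dvd ?_ h1
    have h0 : (⊥ : Subgroup (G ⧸ K)).comap (QuotientGroup.mk' K) = K := by
      rw [MonoidHom.comap_bot, QuotientGroup.ker_mk']
    have h3 : K.relIndex M = Nat.card Mb := by
      calc K.relIndex M = ((⊥ : Subgroup (G ⧸ K)).comap (QuotientGroup.mk' K)).relIndex M := by rw [h0]
        _ = Nat.card Mb := by
          rw [Subgroup.relIndex_comap, Subgroup.map_comap_eq_self_of_surjective (QuotientGroup.mk'_surjective K),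
            Subgroup.relIndex_bot_left]
    rw [h3]
    exact piNat_card fun x hx => (hMb x).mp hx
  have hXc : CoNat π (Nat.card (X.subgroupOf U)) :=
    hX.of_dvd (dvd_of_eq (Nat.card_congr (Subgroup.subgroupOfEquivOfLe hXU).toEquiv))
  obtain ⟨R, hR⟩ := Subgroup.exists_right_complement'_of_coprime (N := X.subgroupOf U) (coprime hrel hXc).symm
  set R' := R.map U.subtype
  have hR'π : PiNat π (Nat.card R') := by
    rw [Subgroup.card_subtype, ← hR.symm.index_eq_card]; exact hrel
  have hRcent : ∀ r ∈ R', ∀ x ∈ X, x * r = r * x := by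
    intro r hr
    have := centralizes_quotient hhom L hLπ X hX r (by rw [Subgroup.normalizer_eq_top]; trivial)
      (hR'π.of_dvd (Subgroup.orderOf_dvd_natCard R' hr))
    exact Subgroup.mem_centralizer_iff.mp this
  have hall : ∀ u : G ⧸ L, u ∈ U → PiNat π (orderOf u) → u ∈ R' := by
    intro u hu huo
    obtain ⟨⟨⟨⟨x, hxU⟩, hx⟩, ⟨⟨r, hrU⟩, hr⟩⟩, hxr⟩ := hR.2 ⟨u, hu⟩
    have hxr' : x * r = u := congrArg Subtype.val hxr
    have hrR : r ∈ R' := ⟨⟨r, hrU⟩, hr, rfl⟩
    have hc : Commute x r := hRcent r hrR x hx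
    have hox : CoNat π (orderOf x) := hX.of_dvd (Subgroup.orderOf_dvd_natCard X hx)
    have hro : PiNat π (orderOf r) := hR'π.of_dvd (Subgroup.orderOf_dvd_natCard R' hrR)
    have hord := hc.orderOf_mul_eq_mul_orderOf_of_coprime (coprime hro hox).symm
    rw [hxr'] at hord
    have h1 : orderOf x = 1 := Nat.eq_one_iff_not_exists_prime_dvd.mpr fun p hp hd =>
      hox p hp hd (huo p hp (hord ▸ dvd_mul_of_dvd_left hd _))
    rw [orderOf_eq_one_iff.mp h1, one_mul] at hxr'
    exact hxr' ▸ hrR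
  refine ⟨R'.comap f, fun g => ⟨fun hg => ?_, fun hg => ?_⟩⟩
  · intro p hp hd
    by_contra hpπ
    have h1 : (orderOf (f g)).Coprime p := (hp.coprime_iff_not_dvd.mpr fun h =>
      hpπ (hR'π p hp (h.trans (Subgroup.orderOf_dvd_natCard R' hg)))).symm
    have h2 : f (g ^ orderOf (f g)) = 1 := by rw [map_pow, pow_orderOf_eq_one]
    have h3 : orderOf g ∣ orderOf (f g) * Nat.card L := by
      apply orderOf_dvd_of_pow_eq_one
      rw [pow_mul]
      exact orderOf_dvd_iff_pow_eq_one.mp (Subgroup.orderOf_dvd_natCard L ((QuotientGroup.eq_one_iff _).mp h2))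
    rcases hp.dvd_mul.mp (hd.trans h3) with h | h
    · exact (hp.coprime_iff_not_dvd.mp h1.symm) h
    · exact hpπ (hLπ p hp h)
  · exact hall (f g) ⟨g, hin g hg, rfl⟩ (hg.of_dvd (orderOf_map_dvd f g))

/-- Homogeneity from the normaliser/centraliser index condition. -/
theorem homog_of_relIndex [Finite G] {π : Set ℕ}
    (hhom : ∀ H : Subgroup G, H ≠ ⊥ → (∀ p : ℕ, p.Prime → p ∣ Nat.card ↥H → p ∉ π) →
        ∀ p : ℕ, p.Prime → p ∣ (Subgroup.centralizer (H : Set G)).relIndex (Subgroup.normalizer (H : Set G)) → p ∉ π) :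
    Homog π G := by
  intro H hH x hx hxo
  by_cases hb : H = ⊥
  · subst hb
    rw [Subgroup.mem_centralizer_iff]
    intro y hy
    rw [show y = 1 from hy, one_mul, mul_one]
  have hC := hhom H hb hH
  set N := Subgroup.normalizer (H : Set G)
  set C := Subgroup.centralizer (H : Set G)
  haveI : (C.subgroupOf N).Normal :=
    Subgroup.normal_subgroupOf_of_le_normalizer (CfsgLib.Coprime.le_normalizer_centralizer (A := N) (B := H) le_rfl)
  have h1 : orderOf ((⟨x, hx⟩ : N) : N ⧸ C.subgroupOf N) = 1 := by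
    refine Nat.eq_one_of_dvd_coprimes (coprime (hxo.of_dvd ?_) ?_) dvd_rfl (orderOf_dvd_natCard _)
    · exact (orderOf_map_dvd (QuotientGroup.mk' _) _).trans (dvd_of_eq (Subgroup.orderOf_mk x hx))
    · rw [← Subgroup.index_eq_card]; exact hC
  exact (QuotientGroup.eq_one_iff (N := C.subgroupOf N) _).mp (orderOf_eq_one_iff.mp h1)

end CfsgLib.PiClosed
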